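import Mathlib
import Cfsg.Agent.Lib.Helper46.FP.Defs
import Cfsg.Agent.Lib.Helper90.BrauerWielandt
import Cfsg.Agent.Lib.Helper87.FrobFix

set_option autoImplicit false

/-!
# S3814 team project (coordinator helper46): tools (T1), (T2) in internal form

* `tool_T1` : commuting `x, y` of prime order `p`, `y ∉ ⟨x⟩`, normalizing a nontrivial solvable
  `p'`-subgroup `W`: some `e ≠ 1` in `⟨x, y⟩` has a nontrivial fixed point on `W`
  (from the Brauer–Wielandt formula `Helper90.bw_solvable`).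
* `tool_T2` : `g` normalizes `K` and the abelian `t`-group `W`, `K` normalizes `W`, `|K|` prime
  to `t`, all `g^i ≠ 1` fixed-point-free on `K`, `g` fixed-point-free on `W`: then `K`
  centralizes `W` (from `Helper87.frob_fix`).
-/

namespace Cfsg.Agent.Lib.Helper37.FP

universe u

variable {G : Type u} [Group G]

/-- In a finite group, `x W x⁻¹ ⊆ W` gives `x ∈ N(W)`. -/
theorem mem_normalizer_of_conj_mem [Finite G] {W : Subgroup G} {x : G}
    (h : ∀ w ∈ W, x * w * x⁻¹ ∈ W) : x ∈ Subgroup.normalizer (W : Set G) := by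
  have hpow : ∀ i : ℕ, ∀ w ∈ W, x ^ i * w * (x ^ i)⁻¹ ∈ W := by
    intro i
    induction i with
    | zero => intro w hw; simpa using hw
    | succ i ih =>
      intro w hw
      have h1 := h _ (ih w hw)
      have e : x ^ (i + 1) * w * (x ^ (i + 1))⁻¹ = x * (x ^ i * w * (x ^ i)⁻¹) * x⁻¹ := by
        rw [pow_succ']; group
      rw [e]; exact h1
  rw [Subgroup.mem_normalizer_iff]
  intro w
  constructor
  · exact h w
  · intro hw
    have h1 := hpow (orderOf x - 1) _ hw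
    have h2 : x ^ (orderOf x - 1) = x⁻¹ := by
      rw [eq_inv_iff_mul_eq_one, ← pow_succ, Nat.sub_add_cancel (orderOf_pos x),
        pow_orderOf_eq_one]
    rw [h2] at h1
    have h3 : x⁻¹ * (x * w * x⁻¹) * x⁻¹⁻¹ = w := by group
    rw [h3] at h1
    exact h1

/-- (T1). -/
theorem tool_T1 [Finite G] {p : ℕ} (hp : p.Prime) {x y : G} (hx : orderOf x = p)
    (hy : orderOf y = p) (hxy : x * y = y * x) (hyx : y ∉ Subgroup.zpowers x)
    {W : Subgroup G} (hW : W ≠ ⊥) (hpW : ¬ p ∣ Nat.card W) (hsolv : Group.IsSolvable W)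
    (hxW : ∀ w ∈ W, x * w * x⁻¹ ∈ W) (hyW : ∀ w ∈ W, y * w * y⁻¹ ∈ W) :
    ∃ e ∈ Subgroup.closure ({x, y} : Set G), e ≠ 1 ∧ ∃ w ∈ W, w ≠ 1 ∧ e * w = w * e := by
  haveI : Fact p.Prime := ⟨hp⟩
  by_contra hcon
  have hcon' : ∀ e ∈ Subgroup.closure ({x, y} : Set G), e ≠ 1 → ∀ w ∈ W, e * w = w * e → w = 1 := by
    intro e he he1 w hw hew
    by_contra hw1
    exact hcon ⟨e, he, he1, w, hw, hw1, hew⟩
  have hxp : x ^ p = 1 := by rw [← hx]; exact pow_orderOf_eq_one x
  have hyp : y ^ p = 1 := by rw [← hy]; exact pow_orderOf_eq_one y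
  have hbw := Cfsg.Agent.Lib.Helper90.bw_solvable x y hxy hxp hyp (Nat.card W) W le_rfl hsolv
    (mem_normalizer_of_conj_mem hxW) (mem_normalizer_of_conj_mem hyW) hpW
  unfold Cfsg.Agent.Lib.Helper90.BWFormula at hbw
  have key : ∀ e ∈ Subgroup.closure ({x, y} : Set G), e ≠ 1 →
      Nat.card ↥(W ⊓ Subgroup.centralizer ({e} : Set G)) = 1 := by
    intro e he he1
    rw [Subgroup.card_eq_one, Subgroup.eq_bot_iff_forall]
    intro w hw
    exact hcon' e he he1 w hw.1 (Subgroup.mem_centralizer_singleton_iff.1 hw.2).symm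
  have hxcl : x ∈ Subgroup.closure ({x, y} : Set G) := Subgroup.subset_closure (by simp)
  have hycl : y ∈ Subgroup.closure ({x, y} : Set G) := Subgroup.subset_closure (by simp)
  have hx1 : x ≠ 1 := by
    intro h
    rw [h, orderOf_one] at hx
    exact hp.one_lt.ne hx
  have h1 := key x hxcl hx1
  have h2 : ∀ i ∈ Finset.range p,
      Nat.card ↥(W ⊓ Subgroup.centralizer ({x ^ i * y} : Set G)) = 1 := by
    intro i _
    apply key
    · exact Subgroup.mul_mem _ (Subgroup.pow_mem _ hxcl i) hycl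
    · intro h
      apply hyx
      rw [eq_inv_of_mul_eq_one_right h]
      exact Subgroup.inv_mem _ (Subgroup.pow_mem _ (Subgroup.mem_zpowers x) i)
  have h3 : Nat.card ↥(W ⊓ Subgroup.centralizer ({x, y} : Set G)) = 1 := by
    rw [Subgroup.card_eq_one, Subgroup.eq_bot_iff_forall]
    intro w hw
    have hwx : x * w = w * x := by
      have := (Subgroup.mem_centralizer_iff.1 hw.2) x (by simp)
      exact this
    exact hcon' x hxcl hx1 w hw.1 hwx
  rw [h1, Finset.prod_eq_one h2, h3, one_pow, mul_one, mul_one] at hbw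
  exact hW (Subgroup.card_eq_one.1 hbw.symm)

/-- The commutative group structure on an abelian subgroup. -/
@[reducible] def commGroupOfComm (W : Subgroup G)
    (h : ∀ w ∈ W, ∀ w' ∈ W, w * w' = w' * w) : CommGroup ↥W :=
  { (inferInstance : Group ↥W) with
    mul_comm := fun a b => Subtype.ext (h a a.2 b b.2) }

/-- (T2), for `W` an abelian group of `t`-power exponent. -/
theorem tool_T2 [Finite G] {K W : Subgroup G} {g : G} (t : ℕ)
    (hgK : ∀ k ∈ K, g * k * g⁻¹ ∈ K) (hgW : ∀ w ∈ W, g * w * g⁻¹ ∈ W)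
    (hKW : ∀ k ∈ K, ∀ w ∈ W, k * w * k⁻¹ ∈ W)
    (hWab : ∀ w ∈ W, ∀ w' ∈ W, w * w' = w' * w)
    (hexp : ∀ w ∈ W, ∃ m : ℕ, w ^ t ^ m = 1) (hcop : (Nat.card K).Coprime t)
    (hfpfK : ∀ i : ℕ, g ^ i ≠ 1 → ∀ k ∈ K, g ^ i * k = k * g ^ i → k = 1)
    (hfpfW : ∀ w ∈ W, g * w = w * g → w = 1) :
    ∀ k ∈ K, ∀ w ∈ W, k * w = w * k := by
  classical
  obtain ⟨M, hM⟩ : ∃ M : Subgroup G,
      M = Subgroup.normalizer (K : Set G) ⊓ Subgroup.normalizer (W : Set G) := ⟨_, rfl⟩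
  have hMK : M ≤ Subgroup.normalizer (K : Set G) := by rw [hM]; exact inf_le_left
  have hMW : M ≤ Subgroup.normalizer (W : Set G) := by rw [hM]; exact inf_le_right
  have hKM : K ≤ M := by
    intro k hk
    rw [hM]
    exact ⟨Subgroup.le_normalizer hk, mem_normalizer_of_conj_mem (hKW k hk)⟩
  have hgM : g ∈ M := by
    rw [hM]
    exact ⟨mem_normalizer_of_conj_mem hgK, mem_normalizer_of_conj_mem hgW⟩
  letI cg : CommGroup ↥W := commGroupOfComm W hWab
  let ρ : ↥M →* MulAut ↥W := W.normalizerMonoidHom.comp (Subgroup.inclusion hMW)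
  have hρ : ∀ (m : ↥M) (w : ↥W), ((ρ m w : ↥W) : G) = (m : G) * (w : G) * (m : G)⁻¹ :=
    fun m w => rfl
  haveI hKn : (K.subgroupOf M).Normal := (Subgroup.normal_subgroupOf_iff_le_normalizer hKM).2 hMK
  let j : ↥(Subgroup.zpowers g) →* ↥M := Subgroup.inclusion (Subgroup.zpowers_le.2 hgM)
  have hj : ∀ a : ↥(Subgroup.zpowers g), ((j a : ↥M) : G) = (a : G) := fun a => rfl
  haveI : Fintype ↥(Subgroup.zpowers g) := Fintype.ofFinite _
  haveI : Fintype ↥(K.subgroupOf M) := Fintype.ofFinite _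
  have hfpf : ∀ a : ↥(Subgroup.zpowers g), a ≠ 1 → ∀ k ∈ K.subgroupOf M,
      j a * k * (j a)⁻¹ = k → k = 1 := by
    intro a ha k hk hak
    have hfin : IsOfFinOrder g := isOfFinOrder_of_finite g
    have ha' : (a : G) ∈ Submonoid.powers g := hfin.mem_powers_iff_mem_zpowers.2 a.2
    obtain ⟨i, hi⟩ := (Submonoid.mem_powers_iff _ _).1 ha'
    have hgi : g ^ i ≠ 1 := by
      rw [hi]
      intro h
      exact ha (Subtype.ext h)
    have h1 : (a : G) * (k : G) * (a : G)⁻¹ = (k : G) := by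
      have := congrArg (fun m : ↥M => (m : G)) hak
      exact this
    have h2 : g ^ i * (k : G) = (k : G) * g ^ i := by
      rw [hi]
      exact mul_inv_eq_iff_eq_mul.1 h1
    exact Subtype.ext (hfpfK i hgi (k : G) (Subgroup.mem_subgroupOf.1 hk) h2)
  have hnorm : ∀ u ∈ (⊤ : Subgroup ↥W), ∏ a : ↥(Subgroup.zpowers g), ρ (j a) u = 1 := by
    intro u _
    have hfix : ρ ⟨g, hgM⟩ (∏ a : ↥(Subgroup.zpowers g), ρ (j a) u)
        = ∏ a : ↥(Subgroup.zpowers g), ρ (j a) u := by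
      rw [map_prod]
      rw [← Equiv.prod_comp (Equiv.mulLeft (⟨g, Subgroup.mem_zpowers g⟩ : ↥(Subgroup.zpowers g)))
        (fun a : ↥(Subgroup.zpowers g) => ρ (j a) u)]
      apply Finset.prod_congr rfl
      intro a _
      show ρ ⟨g, hgM⟩ (ρ (j a) u) = ρ (j (⟨g, Subgroup.mem_zpowers g⟩ * a)) u
      rw [map_mul, map_mul, MulAut.mul_apply]
      rfl
    have h1 : g * ((∏ a : ↥(Subgroup.zpowers g), ρ (j a) u : ↥W) : G) * g⁻¹
        = ((∏ a : ↥(Subgroup.zpowers g), ρ (j a) u : ↥W) : G) := by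
      have := congrArg (fun w : ↥W => (w : G)) hfix
      exact this
    exact Subtype.ext (hfpfW _ (∏ a : ↥(Subgroup.zpowers g), ρ (j a) u : ↥W).2
      (mul_inv_eq_iff_eq_mul.1 h1))
  have hexp' : ∀ u ∈ (⊤ : Subgroup ↥W), ∃ m : ℕ, u ^ t ^ m = 1 := by
    intro u _
    obtain ⟨m, hm⟩ := hexp u u.2
    exact ⟨m, Subtype.ext hm⟩
  have hcop' : (Fintype.card ↥(K.subgroupOf M)).Coprime t := by
    rw [← Nat.card_eq_fintype_card, Nat.card_congr (Subgroup.subgroupOfEquivOfLe hKM).toEquiv]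
    exact hcop
  have hres := Cfsg.Agent.Lib.Helper87.frob_fix ρ (K.subgroupOf M) j hfpf ⊤
    (fun _ _ _ => Subgroup.mem_top _) hnorm hexp' hcop'
  intro k hk w hw
  have h1 := hres ⟨k, hKM hk⟩ (Subgroup.mem_subgroupOf.2 hk) ⟨w, hw⟩ (Subgroup.mem_top _)
  have h2 : k * w * k⁻¹ = w := by
    have := congrArg (fun w : ↥W => (w : G)) h1
    exact this
  exact mul_inv_eq_iff_eq_mul.1 h2

end Cfsg.Agent.Lib.Helper37.FP
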