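import Mathlib
import Cfsg.Agent.Lib.Helper46.FP.Defs
import Cfsg.Agent.Lib.Helper37.FP.Tools

set_option autoImplicit false

/-!
# S3814 team project (coordinator helper46): packages (F), (NF), (C1b)
-/

namespace Cfsg.Agent.Lib.Helper37.FP

open Cfsg.Agent.Lib.Helper46.FP

universe u

section aux

variable {G : Type u} [Group G]

/-- a nontrivial element has a power of prime order. -/
theorem exists_pow_prime_order [Finite G] {c : G} (hc : c ≠ 1) :
    ∃ (s i : ℕ), s.Prime ∧ s ∣ orderOf c ∧ orderOf (c ^ i) = s := by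
  have h1 : orderOf c ≠ 1 := fun h => hc (orderOf_eq_one_iff.1 h)
  obtain ⟨s, hs, hsd⟩ := Nat.exists_prime_and_dvd h1
  exact ⟨s, orderOf c / s, hs, hsd, orderOf_pow_orderOf_div (orderOf_pos c).ne' hsd⟩

/-- in a cyclic group of prime order every nontrivial element is a generator. -/
theorem mem_zpowers_of_prime_order [Finite G] {a b : G} (ha : (orderOf a).Prime)
    (hb : b ∈ Subgroup.zpowers a) (hb1 : b ≠ 1) : a ∈ Subgroup.zpowers b := by
  have hfin : IsOfFinOrder a := isOfFinOrder_of_finite a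
  have hb' : b ∈ Submonoid.powers a := hfin.mem_powers_iff_mem_zpowers.2 hb
  obtain ⟨i, rfl⟩ := (Submonoid.mem_powers_iff _ _).1 hb'
  have hnd : ¬ orderOf a ∣ i := by
    intro h
    exact hb1 ((orderOf_dvd_iff_pow_eq_one (x := a)).1 h)
  have hcop : i.Coprime (orderOf a) := ((Nat.Prime.coprime_iff_not_dvd ha).2 hnd).symm
  obtain ⟨m, hm⟩ := exists_pow_eq_self_of_coprime hcop
  have h := Subgroup.pow_mem _ (Subgroup.mem_zpowers (a ^ i)) m
  rw [hm] at h
  exact h

variable {V H : Subgroup G} {t : ℕ} {π : Finset ℕ}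

theorem Cfg_ne_t (hc : Cfg V H t π) {p : ℕ} (hp : p ∈ π) : p ≠ t :=
  fun h => hc.tnot (h ▸ hp)

theorem Cfg_orderOf_V (hc : Cfg V H t π) {v : G} (hv : v ∈ V) (hv1 : v ≠ 1) : orderOf v = t := by
  haveI : Fact t.Prime := ⟨hc.tprime⟩
  exact orderOf_eq_prime (hc.Vexp v hv) hv1

theorem Cfg_isPGroup_V (hc : Cfg V H t π) : IsPGroup t V := by
  intro v
  refine ⟨1, ?_⟩
  apply Subtype.ext
  rw [pow_one]
  exact hc.Vexp v v.2

/-- a prime `≠ t` does not divide the order of a subgroup of `V`. -/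
theorem Cfg_not_dvd_card (hc : Cfg V H t π) {W : Subgroup G} (hW : W ≤ V) {s : ℕ}
    (hs : s.Prime) (hst : s ≠ t) : ¬ s ∣ Nat.card W := by
  haveI := hc.fin
  haveI : Fact t.Prime := ⟨hc.tprime⟩
  obtain ⟨m, hm⟩ := ((Cfg_isPGroup_V hc).to_le hW).exists_card_eq
  rw [hm]
  intro h
  exact hst ((Nat.prime_dvd_prime_iff_eq hs hc.tprime).1 (hs.dvd_of_dvd_pow h))

theorem Cfg_solvable_sub (hc : Cfg V H t π) {W : Subgroup G} (hW : W ≤ V) :
    Group.IsSolvable W :=
  Group.isSolvable_of_comm (fun a b => Subtype.ext (hc.Vcomm a (hW a.2) b (hW b.2)))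

/-- `C_V(x)` is invariant under everything commuting with `x`. -/
theorem Cfg_CV_inv (hc : Cfg V H t π) {x c : G} (hcx : c * x = x * c) :
    ∀ w ∈ V ⊓ Subgroup.centralizer ({x} : Set G),
      c * w * c⁻¹ ∈ V ⊓ Subgroup.centralizer ({x} : Set G) := by
  intro w hw
  refine ⟨hc.Vnormal.conj_mem w hw.1 c, ?_⟩
  show c * w * c⁻¹ ∈ Subgroup.centralizer ({x} : Set G)
  rw [Subgroup.mem_centralizer_singleton_iff]
  have h2 : Commute w x := Subgroup.mem_centralizer_singleton_iff.1 hw.2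
  have h3 : Commute c x := hcx
  exact ((h3.mul_left h2).mul_left h3.inv_left)

/-- `Fx V x` gives `C_V(x) ≠ 1`. -/
theorem CV_ne_bot_of_Fx {x : G} (h : Fx V x) :
    V ⊓ Subgroup.centralizer ({x} : Set G) ≠ ⊥ := by
  obtain ⟨v, hv, hv1, hvx⟩ := h
  intro hbot
  have : v ∈ V ⊓ Subgroup.centralizer ({x} : Set G) :=
    ⟨hv, Subgroup.mem_centralizer_singleton_iff.2 hvx⟩
  rw [hbot] at this
  exact hv1 (Subgroup.mem_bot.1 this)

end aux

theorem bf_F : Cfsg.Agent.Lib.Helper46.FP.BF_F.{u} := by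
  intro G _ V H t π hc p hp q hq hpq x hx hox hfx
  obtain ⟨v, hv, hv1, hvx⟩ := hfx
  have hpp := hc.piprime p hp
  have hqp := hc.piprime q hq
  have htp : t ≠ p := (Cfg_ne_t hc hp).symm
  have htq : t ≠ q := (Cfg_ne_t hc hq).symm
  have hov : orderOf v = t := Cfg_orderOf_V hc hv hv1
  have hcop : (orderOf v).Coprime (orderOf x) := by
    rw [hov, hox]
    exact Nat.Coprime.mul_right ((Nat.coprime_primes hc.tprime hpp).2 htp)
      ((Nat.coprime_primes hc.tprime hqp).2 htq)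
  have h1 := (show Commute v x from hvx).orderOf_mul_eq_mul_orderOf_of_coprime hcop
  rw [hov, hox, ← mul_assoc] at h1
  exact hc.notriple t (Finset.mem_insert_self t π) p (Finset.mem_insert_of_mem hp) q
    (Finset.mem_insert_of_mem hq) htp hpq htq (v * x) h1

theorem bf_NF : Cfsg.Agent.Lib.Helper46.FP.BF_NF.{u} := by
  intro G _ V H t π hc hfa n hn hon hnorm hfx
  haveI := hc.fin
  obtain ⟨v, hv, hv1, hvn⟩ := hfx
  obtain ⟨W, hW⟩ : ∃ W : Subgroup G, W = V ⊓ Subgroup.centralizer ({n} : Set G) := ⟨_, rfl⟩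
  have hmemW : ∀ w : G, w ∈ W ↔ w ∈ V ∧ Commute w n := by
    intro w
    rw [hW, Subgroup.mem_inf, Subgroup.mem_centralizer_singleton_iff]
    rfl
  have hHW : ∀ h ∈ H, ∀ w ∈ W, h * w * h⁻¹ ∈ W := by
    intro h hh w hw
    rw [hmemW] at hw ⊢
    refine ⟨hc.Vnormal.conj_mem w hw.1 h, ?_⟩
    have h1 : h⁻¹ * n * h ∈ Subgroup.zpowers n := by
      have := hnorm.2 h⁻¹ (H.inv_mem hh) n (Subgroup.mem_zpowers n)
      simpa using this
    obtain ⟨i, hi⟩ := Subgroup.mem_zpowers_iff.1 h1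
    have h3 : Commute w (h⁻¹ * n * h) := by rw [← hi]; exact hw.2.zpow_right i
    have h4 : h * w * h⁻¹ * n = h * (w * (h⁻¹ * n * h)) * h⁻¹ := by group
    have h5 : n * (h * w * h⁻¹) = h * ((h⁻¹ * n * h) * w) * h⁻¹ := by group
    show h * w * h⁻¹ * n = n * (h * w * h⁻¹)
    rw [h4, h5, h3.eq]
  have hVW : ∀ u ∈ V, ∀ w ∈ W, u * w * u⁻¹ ∈ W := by
    intro u hu w hw
    have : u * w * u⁻¹ = w := by rw [hc.Vcomm u hu w ((hmemW w).1 hw).1]; group
    rw [this]; exact hw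
  have hWn : W.Normal := by
    rw [← Subgroup.normalizer_eq_top_iff, ← top_le_iff, ← hc.sup]
    exact sup_le (fun h hh => mem_normalizer_of_conj_mem (hHW h hh))
      (fun u hu => mem_normalizer_of_conj_mem (hVW u hu))
  have hWV : W ≤ V := fun w hw => ((hmemW w).1 hw).1
  rcases hc.Vmin W hWn hWV with h | h
  · have : v ∈ W := (hmemW v).2 ⟨hv, hvn⟩
    rw [h] at this
    exact hv1 (Subgroup.mem_bot.1 this)
  · have hn1 : n = 1 := hfa n hn (fun u hu => by
      have : u ∈ W := h ▸ hu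
      exact ((hmemW u).1 this).2)
    rw [hn1, orderOf_one] at hon
    exact Nat.not_prime_one hon

theorem bf_C1b : Cfsg.Agent.Lib.Helper46.FP.BF_C1b.{u} := by
  intro G _ V H t π hc p hp q hq hpq x hx y hy z hz hox hfx hoy hoz hxy hxz hyz
  haveI := hc.fin
  by_contra hzy
  have hpp := hc.piprime p hp
  have hqp := hc.piprime q hq
  obtain ⟨e, he, he1, w, hw, hw1, hew⟩ := tool_T1 hqp hoy hoz hyz hzy (CV_ne_bot_of_Fx hfx)
    (Cfg_not_dvd_card hc inf_le_left hqp (Cfg_ne_t hc hq)) (Cfg_solvable_sub hc inf_le_left)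
    (Cfg_CV_inv hc hxy.symm) (Cfg_CV_inv hc hxz.symm)
  -- `e ∈ H`, `e` commutes with `x`, `e` is a `q`-element
  have hle : Subgroup.closure ({y, z} : Set G) ≤ H ⊓ Subgroup.centralizer ({x} : Set G) := by
    rw [Subgroup.closure_le]
    intro g hg
    rcases hg with rfl | rfl
    · exact ⟨hy, Subgroup.mem_centralizer_singleton_iff.2 hxy.symm⟩
    · exact ⟨hz, Subgroup.mem_centralizer_singleton_iff.2 hxz.symm⟩
  have heH : e ∈ H := (hle he).1
  have hex : Commute e x := Subgroup.mem_centralizer_singleton_iff.1 (hle he).2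
  haveI : Fact q.Prime := ⟨hqp⟩
  have hyq : y ^ q = 1 := by rw [← hoy]; exact pow_orderOf_eq_one y
  have hzq : z ^ q = 1 := by rw [← hoz]; exact pow_orderOf_eq_one z
  have hP := Cfsg.Agent.Lib.Helper90.isPGroup_closure_pair y z hyz hyq hzq
  obtain ⟨k, hk⟩ := hP ⟨e, he⟩
  have hek : e ^ q ^ k = 1 := congrArg Subtype.val hk
  obtain ⟨s, i, hs, hsd, hsi⟩ := exists_pow_prime_order he1
  have hsq : s = q := by
    have h1 : s ∣ q ^ k := hsd.trans (orderOf_dvd_of_pow_eq_one hek)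
    exact (Nat.prime_dvd_prime_iff_eq hs hqp).1 (hs.dvd_of_dvd_pow h1)
  rw [hsq] at hsi
  -- `x * e^i` has order `p * q` and fixes `w`
  have hcomm : Commute x (e ^ i) := (hex.pow_left i).symm
  have hord : orderOf (x * e ^ i) = p * q := by
    rw [hcomm.orderOf_mul_eq_mul_orderOf_of_coprime (by
      rw [hox, hsi]; exact (Nat.coprime_primes hpp hqp).2 hpq), hox, hsi]
  have hwx : Commute w x := Subgroup.mem_centralizer_singleton_iff.1 hw.2
  have hwe : Commute w (e ^ i) := (show Commute e w from hew).symm.pow_right i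
  exact bf_F hc p hp q hq hpq (x * e ^ i) (H.mul_mem hx (H.pow_mem heH i)) hord
    ⟨w, hw.1, hw1, (hwx.mul_right hwe).eq⟩

end Cfsg.Agent.Lib.Helper37.FP
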