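import Mathlib
import Cfsg.Agent.Lib.Helper46.FP.Defs
import Cfsg.Agent.Lib.Helper37.FP.Easy
import Cfsg.Agent.Lib.Helper1.Hall

set_option autoImplicit false

/-!
# S3814 team project (coordinator helper46): package (C1a)
-/

namespace Cfsg.Agent.Lib.Helper37.FP

open Cfsg.Agent.Lib.Helper46.FP

universe u

theorem orderOf_dvd_card_of_mem {G : Type u} [Group G] {L : Subgroup G} {l : G} (hl : l ∈ L) :
    orderOf l ∣ Nat.card L := by
  have h := orderOf_dvd_natCard (⟨l, hl⟩ : ↥L)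
  rwa [Subgroup.orderOf_mk] at h

theorem orderOf_conj_eq {G : Type u} [Group G] (l n : G) : orderOf (l * n * l⁻¹) = orderOf n := by
  have h := MulEquiv.orderOf_eq (MulAut.conj l) n
  rwa [MulAut.conj_apply] at h

/-- A subgroup `L` normalizing the abelian `t`-group `W ≠ 1`, all of whose nontrivial elements
are fixed-point-free on `W`, with a normal subgroup `⟨n⟩` of prime order `s` and with `s' ∣ |L|`
for another prime `s'`, has an element of order `s * s'`. -/
theorem exists_orderOf_mul {G : Type u} [Group G] [Finite G] {L W : Subgroup G} {t : ℕ}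
    (hLW : ∀ l ∈ L, ∀ w ∈ W, l * w * l⁻¹ ∈ W)
    (hWab : ∀ w ∈ W, ∀ w' ∈ W, w * w' = w' * w)
    (hexp : ∀ w ∈ W, w ^ t = 1) (hWne : W ≠ ⊥)
    (hfpf : ∀ l ∈ L, l ≠ 1 → ∀ w ∈ W, l * w = w * l → w = 1)
    {s s' : ℕ} (hs : s.Prime) (hs' : s'.Prime) (hss' : s ≠ s') (hst : s.Coprime t)
    (hs'L : s' ∣ Nat.card L)
    {n : G} (hn : n ∈ L) (hon : orderOf n = s)
    (hnL : ∀ l ∈ L, l * n * l⁻¹ ∈ Subgroup.zpowers n) :
    ∃ g ∈ L, orderOf g = s * s' := by
  haveI : Fact s'.Prime := ⟨hs'⟩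
  obtain ⟨z', hz'⟩ := exists_prime_orderOf_dvd_card' s' hs'L
  have hoz : orderOf (z' : G) = s' := by rw [Subgroup.orderOf_coe]; exact hz'
  by_cases hcomm : (z' : G) * n = n * (z' : G)
  · refine ⟨n * z', L.mul_mem hn z'.2, ?_⟩
    rw [(show Commute n (z' : G) from hcomm.symm).orderOf_mul_eq_mul_orderOf_of_coprime
      (by rw [hon, hoz]; exact (Nat.coprime_primes hs hs').2 hss'), hon, hoz]
  · exfalso
    have hn1 : n ≠ 1 := by
      intro h
      rw [h, orderOf_one] at hon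
      exact hs.one_lt.ne hon
    have hz1 : (z' : G) ≠ 1 := by
      intro h
      rw [h, orderOf_one] at hoz
      exact hs'.one_lt.ne hoz
    have hKL : Subgroup.zpowers n ≤ L := Subgroup.zpowers_le.2 hn
    have hT2 := tool_T2 (K := Subgroup.zpowers n) (W := W) (g := (z' : G)) t
      (by
        intro k hk
        obtain ⟨i, rfl⟩ := Subgroup.mem_zpowers_iff.1 hk
        rw [← conj_zpow]
        exact Subgroup.zpow_mem _ (hnL _ z'.2) i)
      (hLW _ z'.2)
      (fun k hk => hLW k (hKL hk))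
      hWab
      (fun w hw => ⟨1, by rw [pow_one]; exact hexp w hw⟩)
      (by rw [Nat.card_zpowers, hon]; exact hst)
      (by
        intro i hi k hk hik
        by_contra hk1
        apply hcomm
        have h1 : n ∈ Subgroup.zpowers k :=
          mem_zpowers_of_prime_order (by rw [hon]; exact hs) hk hk1
        have h2 : (z' : G) ∈ Subgroup.zpowers ((z' : G) ^ i) :=
          mem_zpowers_of_prime_order (by rw [hoz]; exact hs')
            (Subgroup.pow_mem _ (Subgroup.mem_zpowers _) i) hi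
        obtain ⟨a, ha⟩ := Subgroup.mem_zpowers_iff.1 h1
        obtain ⟨b, hb⟩ := Subgroup.mem_zpowers_iff.1 h2
        have h3 : Commute ((z' : G) ^ i) k := hik
        have h4 : Commute (((z' : G) ^ i) ^ b) (k ^ a) := (h3.zpow_left b).zpow_right a
        rw [ha, hb] at h4
        exact h4.eq)
      (fun w hw hzw => hfpf _ z'.2 hz1 w hw hzw)
    obtain ⟨⟨w, hw⟩, hw1⟩ := (Subgroup.ne_bot_iff_exists_ne_one).1 hWne
    exact hw1 (Subtype.ext (hfpf n hn hn1 w hw (hT2 n (Subgroup.mem_zpowers n) w hw)))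

theorem bf_C1a : Cfsg.Agent.Lib.Helper46.FP.BF_C1a.{u} := by
  intro G _ V H t π hc p hp q hq r hr hpq hqr hpr x hx y hy z hz hox hfx hoy hoz hxy hxz
  haveI := hc.fin
  haveI := hc.solv
  have hpp := hc.piprime p hp
  have hqp := hc.piprime q hq
  have hrp := hc.piprime r hr
  obtain ⟨C, hC⟩ : ∃ C : Subgroup G, C = H ⊓ Subgroup.centralizer ({x} : Set G) := ⟨_, rfl⟩
  obtain ⟨W, hW⟩ : ∃ W : Subgroup G, W = V ⊓ Subgroup.centralizer ({x} : Set G) := ⟨_, rfl⟩
  have hmemC : ∀ c : G, c ∈ C ↔ c ∈ H ∧ Commute c x := by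
    intro c
    rw [hC, Subgroup.mem_inf, Subgroup.mem_centralizer_singleton_iff]
    rfl
  have hmemW : ∀ w : G, w ∈ W ↔ w ∈ V ∧ Commute w x := by
    intro w
    rw [hW, Subgroup.mem_inf, Subgroup.mem_centralizer_singleton_iff]
    rfl
  have hWV : W ≤ V := fun w hw => ((hmemW w).1 hw).1
  have hCH : C ≤ H := fun c hc' => ((hmemC c).1 hc').1
  have hWne : W ≠ ⊥ := by rw [hW]; exact CV_ne_bot_of_Fx hfx
  have hCW : ∀ c ∈ C, ∀ w ∈ W, c * w * c⁻¹ ∈ W := by
    intro c hc' w hw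
    rw [hW] at hw ⊢
    exact Cfg_CV_inv hc ((hmemC c).1 hc').2.eq w hw
  -- `π = {p, q, r}`
  have hπ : ∀ s ∈ π, s = p ∨ s = q ∨ s = r := by
    have hsub : ({p, q, r} : Finset ℕ) ⊆ π := by
      intro a ha
      simp only [Finset.mem_insert, Finset.mem_singleton] at ha
      rcases ha with rfl | rfl | rfl <;> assumption
    have hcard : ({p, q, r} : Finset ℕ).card = 3 := by
      rw [Finset.card_insert_of_notMem (by simp [hpq, hpr]),
        Finset.card_insert_of_notMem (by simp [hqr]), Finset.card_singleton]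
    have heq := Finset.eq_of_subset_of_card_le hsub (by rw [hcard, hc.card3])
    intro s hs
    rw [← heq] at hs
    simpa using hs
  -- elements of `C` of prime order `s ≠ p` are fixed-point-free on `W`
  have hfpf1 : ∀ c ∈ C, ∀ s ∈ π, s ≠ p → orderOf c = s → ∀ w ∈ W, c * w = w * c → w = 1 := by
    intro c hcC s hs hsp hoc w hw hcw
    by_contra hw1
    have hsP := hc.piprime s hs
    have hcx : Commute c x := ((hmemC c).1 hcC).2
    have hord : orderOf (x * c) = p * s := by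
      rw [hcx.symm.orderOf_mul_eq_mul_orderOf_of_coprime (by
        rw [hox, hoc]; exact (Nat.coprime_primes hpp hsP).2 (Ne.symm hsp)), hox, hoc]
    have hwx : Commute w x := ((hmemW w).1 hw).2
    have hwc : Commute w c := (show Commute c w from hcw).symm
    exact bf_F hc p hp s hs (Ne.symm hsp) (x * c) (H.mul_mem hx (hCH hcC)) hord
      ⟨w, hWV hw, hw1, (hwx.mul_right hwc).eq⟩
  -- a Hall `p'`-subgroup `L` of `C`
  have hCpos : Nat.card C ≠ 0 := Nat.card_pos.ne'
  obtain ⟨a, m, hpm, hCm⟩ := Nat.exists_eq_pow_mul_and_not_dvd hCpos p hpp.one_lt.ne'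
  obtain ⟨L', hL'⟩ := Cfsg.Agent.Lib.Helper1.hall_exists (G := ↥C) m (p ^ a)
    (by rw [hCm, mul_comm])
    (Nat.Coprime.pow_right a ((Nat.Prime.coprime_iff_not_dvd hpp).2 hpm).symm)
  obtain ⟨L, hL⟩ : ∃ L : Subgroup G, L = L'.map C.subtype := ⟨_, rfl⟩
  have hLcard : Nat.card L = m := by
    rw [hL, Subgroup.card_map_of_injective C.subtype_injective, hL']
  have hLC : L ≤ C := by rw [hL]; exact Subgroup.map_subtype_le L'
  have hm0 : m ≠ 0 := by
    rintro rfl
    exact hpm (dvd_zero p)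
  have hm_primes : ∀ s : ℕ, s.Prime → s ∣ m → s ∈ π ∧ s ≠ p := by
    intro s hs hsm
    refine ⟨hc.Hpi s hs ?_, ?_⟩
    · have h1 : s ∣ Nat.card C := by rw [hCm]; exact Dvd.dvd.mul_left hsm _
      exact h1.trans (Subgroup.card_dvd_of_le hCH)
    · rintro rfl
      exact hpm hsm
  have hfpfL : ∀ l ∈ L, l ≠ 1 → ∀ w ∈ W, l * w = w * l → w = 1 := by
    intro l hl hl1 w hw hlw
    obtain ⟨s, i, hs, hsd, hsi⟩ := exists_pow_prime_order hl1
    have hsm : s ∣ m := by rw [← hLcard]; exact hsd.trans (orderOf_dvd_card_of_mem hl)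
    obtain ⟨hsπ, hsp⟩ := hm_primes s hs hsm
    exact hfpf1 (l ^ i) (C.pow_mem (hLC hl) i) s hsπ hsp hsi w hw
      ((show Commute l w from hlw).pow_left i).eq
  have hdvd_m : ∀ c ∈ C, ∀ s : ℕ, s.Prime → s ≠ p → orderOf c = s → s ∣ m := by
    intro c hcC s hs hsp hoc
    have h1 : s ∣ Nat.card C := by rw [← hoc]; exact orderOf_dvd_card_of_mem hcC
    rw [hCm] at h1
    exact (Nat.Coprime.dvd_mul_left
      (Nat.Coprime.pow_right a ((Nat.coprime_primes hs hpp).2 hsp))).1 h1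
  have hqm : q ∣ m := hdvd_m y ((hmemC y).2 ⟨hy, hxy.symm⟩) q hqp (Ne.symm hpq) hoy
  have hrm : r ∣ m := hdvd_m z ((hmemC z).2 ⟨hz, hxz.symm⟩) r hrp (Ne.symm hpr) hoz
  -- a normal abelian subgroup `Q` of prime power order of `L`
  haveI : Nontrivial ↥L := by
    rw [← Finite.one_lt_card_iff_nontrivial, hLcard]
    exact lt_of_lt_of_le hqp.one_lt (Nat.le_of_dvd (Nat.pos_of_ne_zero hm0) hqm)
  obtain ⟨Q, s, k, hQn, hQc, hs, hk, hQcard⟩ :=
    Cfsg.Agent.Lib.Helper1.exists_minNormal_pGroup ↥L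
  have hsQ : s ∣ Nat.card Q := by rw [hQcard]; exact dvd_pow_self s hk.ne'
  have hsm : s ∣ m := by
    rw [← hLcard]
    exact hsQ.trans (Subgroup.card_subgroup_dvd_card Q)
  obtain ⟨hsπ, hsp⟩ := hm_primes s hs hsm
  haveI : Fact s.Prime := ⟨hs⟩
  obtain ⟨n', hn'⟩ := exists_prime_orderOf_dvd_card' s hsQ
  obtain ⟨n, hn⟩ : ∃ n : G, n = ((n' : ↥L) : G) := ⟨_, rfl⟩
  have hnL : n ∈ L := by rw [hn]; exact (n' : ↥L).2
  have hon : orderOf n = s := by
    rw [hn, Subgroup.orderOf_coe, Subgroup.orderOf_coe]; exact hn'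
  have hst : s ≠ t := Cfg_ne_t hc hsπ
  have hnorm : ∀ l ∈ L, l * n * l⁻¹ ∈ Subgroup.zpowers n := by
    intro l hl
    by_contra hcon
    have hn2Q : (⟨l, hl⟩ : ↥L) * (n' : ↥L) * (⟨l, hl⟩ : ↥L)⁻¹ ∈ Q := hQn.conj_mem _ n'.2 _
    have hcomm : n * (l * n * l⁻¹) = (l * n * l⁻¹) * n := by
      have h1 : n' * (⟨_, hn2Q⟩ : ↥Q) = (⟨_, hn2Q⟩ : ↥Q) * n' := hQc.is_comm.comm n' ⟨_, hn2Q⟩
      have h2 := congrArg (fun a : ↥Q => ((a : ↥L) : G)) h1
      rw [hn]
      exact h2
    have ho2 : orderOf (l * n * l⁻¹) = s := by rw [orderOf_conj_eq, hon]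
    have hl2 : l * n * l⁻¹ ∈ L := L.mul_mem (L.mul_mem hl hnL) (L.inv_mem hl)
    obtain ⟨e, he, he1, w, hw, hw1, hew⟩ := tool_T1 hs hon ho2 hcomm hcon hWne
      (Cfg_not_dvd_card hc hWV hs hst) (Cfg_solvable_sub hc hWV) (hCW n (hLC hnL))
      (hCW _ (hLC hl2))
    have heL : e ∈ L := by
      have hle : Subgroup.closure ({n, l * n * l⁻¹} : Set G) ≤ L := by
        rw [Subgroup.closure_le]
        intro g hg
        rcases hg with rfl | rfl
        · exact hnL
        · exact hl2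
      exact hle he
    exact hw1 (hfpfL e heL he1 w hw hew)
  have hLW : ∀ l ∈ L, ∀ w ∈ W, l * w * l⁻¹ ∈ W := fun l hl => hCW l (hLC hl)
  have hWab : ∀ w ∈ W, ∀ w' ∈ W, w * w' = w' * w :=
    fun w hw w' hw' => hc.Vcomm w (hWV hw) w' (hWV hw')
  have hexp : ∀ w ∈ W, w ^ t = 1 := fun w hw => hc.Vexp w (hWV hw)
  have hfinal : ∀ g ∈ L, orderOf g = q * r → False := by
    intro g hg hog
    have hgx : Commute g x := ((hmemC g).1 (hLC hg)).2
    have hord : orderOf (x * g) = p * q * r := by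
      rw [hgx.symm.orderOf_mul_eq_mul_orderOf_of_coprime (by
        rw [hox, hog]
        exact Nat.Coprime.mul_right ((Nat.coprime_primes hpp hqp).2 hpq)
          ((Nat.coprime_primes hpp hrp).2 hpr)), hox, hog, mul_assoc]
    exact hc.notriple p (Finset.mem_insert_of_mem hp) q (Finset.mem_insert_of_mem hq) r
      (Finset.mem_insert_of_mem hr) hpq hqr hpr (x * g) hord
  have hcopt : s.Coprime t := (Nat.coprime_primes hs hc.tprime).2 hst
  rcases hπ s hsπ with h | h | h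
  · exact hsp h
  · have hon' : orderOf n = q := by rw [hon, h]
    obtain ⟨g, hg, hog⟩ := exists_orderOf_mul hLW hWab hexp hWne hfpfL hqp hrp hqr
      (h ▸ hcopt) (by rw [hLcard]; exact hrm) hnL hon' hnorm
    exact hfinal g hg hog
  · have hon' : orderOf n = r := by rw [hon, h]
    obtain ⟨g, hg, hog⟩ := exists_orderOf_mul hLW hWab hexp hWne hfpfL hrp hqp (Ne.symm hqr)
      (h ▸ hcopt) (by rw [hLcard]; exact hqm) hnL hon' hnorm
    exact hfinal g hg (by rw [hog, mul_comm])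

end Cfsg.Agent.Lib.Helper37.FP
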